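import Mathlib
import Cfsg.Agent.AschCases.Transv

set_option autoImplicit false
set_option linter.unusedSectionVars false
set_option linter.style.haveILetI false

/-!
Field subalgebras of matrix algebras: the field structure, and the degree divides the dimension.
-/

namespace Cfsg.Agent.AschCases

open scoped Matrix
open Cfsg.Geo

lemma finrank_dvd_of_algHom {F K V : Type*} [Field F] [Field K] [Algebra F K] [AddCommGroup V] [Module F V]
    [FiniteDimensional F V] (φ : K →ₐ[F] Module.End F V) : Module.finrank F K ∣ Module.finrank F V := by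
  letI : Module K V := Module.compHom V (φ : K →+* Module.End F V)
  have hsmul : ∀ (k : K) (v : V), k • v = φ k v := fun k v => rfl
  haveI : IsScalarTower F K V := by
    refine ⟨fun c k v => ?_⟩
    rw [hsmul, hsmul, map_smul, LinearMap.smul_apply]
  exact ⟨_, (Module.finrank_mul_finrank F K V).symm⟩

variable {ι : Type} [Fintype ι] [DecidableEq ι] {F : Type*} [Field F]

/-- The field structure on a field subalgebra. -/
@[reducible] noncomputable def fieldOf [Nonempty ι] {r : ℕ} {K : Subalgebra F (Matrix ι ι F)} (hK : IsFieldSubalgebra r K) :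
    Field K :=
  letI : CommRing K := { (inferInstance : Ring K) with
    mul_comm := fun x y => Subtype.ext (hK.comm x x.2 y y.2) }
  IsField.toField
    { exists_pair_ne := ⟨0, 1, fun h => by
        have h1 := congrArg Subtype.val h
        obtain ⟨i⟩ := (inferInstance : Nonempty ι)
        have h2 := congrFun (congrFun h1 i) i
        simp at h2⟩
      mul_comm := fun x y => Subtype.ext (hK.comm x x.2 y y.2)
      mul_inv_cancel := fun {x} hx => by
        obtain ⟨y, hy, hxy⟩ := hK.inv x x.2 (fun h => hx (Subtype.ext h))
        exact ⟨⟨y, hy⟩, Subtype.ext hxy⟩ }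

/-- The degree of a field subalgebra divides the dimension. -/
lemma dvd_card_of_isFieldSubalgebra [Nonempty ι] {r : ℕ} {K : Subalgebra F (Matrix ι ι F)}
    (hK : IsFieldSubalgebra r K) : r ∣ Fintype.card ι := by
  have key := @finrank_dvd_of_algHom F K (ι → F) _ (fieldOf hK) (inferInstanceAs (Algebra F K)) _ _ _
    ((Matrix.toLinAlgEquiv' : Matrix ι ι F ≃ₐ[F] _).toAlgHom.comp K.val)
  rw [Module.finrank_fintype_fun_eq_card] at key
  have h2 : Module.finrank F K = r := hK.finrank_eq
  rw [← h2]
  exact key

end Cfsg.Agent.AschCases
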